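import Cfsg.Agent.H774.CC.Young

/-!
# S4884, block D: the identity in the symmetric group

`sum_pf` : `∑_K co(K) |Fix(x)| = ∏ dig n` if the cycle lengths of `x` are the binary digits of `n`, and `0` otherwise
(`Fix(x)` on the cosets of the Young subgroup of `K`);
`newtonS` : `∑_K co(K) ⟨1_{Y_K}, ψ⟩ = ψ(w)` for class functions `ψ`.
-/

set_option autoImplicit false
set_option linter.unusedSectionVars false

namespace Cfsg.Agent.H774.CC

open Cfsg Cfsg.Agent.H439.CC Cfsg.Agent.H364.CC Finset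
open Cfsg.Agent.H215.WB (Yn tp NewtonS sum_dig tp_eq tp_sum)

/-- multiplicities and fixed points -/
theorem mu_eq_sum {G : Type*} [Group G] [Fintype G] (P : Subgroup G) (ψ : G → ℂ) (hψ : IsClassFunction G ψ) :
    mu P ψ = (Fintype.card G : ℂ)⁻¹ * ∑ g : G, (pf P g : ℂ) * ψ g := by
  classical
  have := Fintype.ofFinite P
  have := Fintype.ofFinite (G ⧸ P)
  have h1 : ∀ g : G, (pf P g : ℂ) = ∑ y : G ⧸ P, if g • y = y then (1 : ℂ) else 0 := by
    intro g
    unfold pf
    rw [Finset.sum_ite, Finset.sum_const_zero, add_zero, Finset.sum_const, nsmul_eq_mul, mul_one,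
      ← Fintype.card_subtype, ← Nat.card_eq_fintype_card]
  have h2 : ∀ y : G ⧸ P, ∑ g : G, (if g • y = y then (1 : ℂ) else 0) * ψ g = ∑ h : P, ψ h := by
    intro y
    induction y using QuotientGroup.induction_on with
    | H a =>
      have h3 : ∑ g : G, (if g • (a : G ⧸ P) = a then (1 : ℂ) else 0) * ψ g =
          ∑ h : G, if h ∈ P then ψ h else 0 := by
        refine (Fintype.sum_equiv (MulAut.conj a).toEquiv _ _ fun h => ?_).symm
        have h4 : (a * h * a⁻¹) • (a : G ⧸ P) = a ↔ h ∈ P := by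
          rw [MulAction.Quotient.smul_coe, smul_eq_mul, eq_comm, QuotientGroup.eq]
          rw [show a⁻¹ * (a * h * a⁻¹ * a) = h by group]
        change (if h ∈ P then ψ h else 0) = (if (a * h * a⁻¹) • (a : G ⧸ P) = a then (1 : ℂ) else 0) * ψ (a * h * a⁻¹)
        by_cases h5 : h ∈ P
        · rw [if_pos h5, if_pos (h4.2 h5), one_mul, hψ]
        · rw [if_neg h5, if_neg fun h => h5 (h4.1 h), zero_mul]
      rw [h3, ← Finset.sum_filter]
      exact (Finset.sum_subtype _ (fun x => by simp) _)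
  have h3 : ∑ g : G, (pf P g : ℂ) * ψ g = (Fintype.card (G ⧸ P) : ℂ) * ∑ h : P, ψ h := by
    simp only [h1, Finset.sum_mul]
    rw [Finset.sum_comm, Finset.sum_congr rfl fun y _ => h2 y, Finset.sum_const, nsmul_eq_mul, Finset.card_univ]
  have h5 : (Nat.card P : ℂ) ≠ 0 := by exact_mod_cast Nat.card_pos.ne'
  have h6 : (Fintype.card G : ℂ) = (Fintype.card (G ⧸ P) : ℂ) * (Nat.card P : ℂ) := by
    have := Subgroup.card_eq_card_quotient_mul_card_subgroup P
    rw [Nat.card_eq_fintype_card, Nat.card_eq_fintype_card (α := G ⧸ P)] at this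
    exact_mod_cast this
  have h7 : (Fintype.card (G ⧸ P) : ℂ) ≠ 0 := by exact_mod_cast Fintype.card_ne_zero
  rw [h3, mu, finsum_eq_sum_of_fintype, h6]
  field_simp

theorem nodup_dig (n : ℕ) : (dig n).Nodup := by
  unfold dig
  exact (List.nodup_map_iff (Nat.pow_right_injective le_rfl)).2 Nat.bitIndices_nodup

theorem one_le_dig {n d : ℕ} (hd : d ∈ dig n) : 1 ≤ d := by
  obtain ⟨i, -, rfl⟩ := List.mem_map.1 hd
  exact Nat.one_le_two_pow

/-- **the values of the combination** -/
theorem sum_pf {n : ℕ} (x : Equiv.Perm (Fin n)) :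
    ∑ K ∈ (Icc 1 n).powerset, coL (dig n) K * (pf (Yn n K) x : ℤ) =
      if tp x = (dig n : Multiset ℕ) then (((dig n).prod : ℕ) : ℤ) else 0 := by
  have h1 := TT_St x (dig n) (fun d hd => one_le_dig hd) (nodup_dig n) (bo x) (by
    rw [sum_dig, Fintype.card_fin]
    rfl)
  have h2 : tyO x (bo x).1 = tp x := tyO_empty x
  rw [h2] at h1
  rw [← h1]
  unfold TT
  rw [sum_dig]
  exact sum_congr rfl fun K hK => by rw [pf_Yn (mem_powerset.1 hK)]

/-- the size of the class -/
theorem card_class {n : ℕ} {w : Equiv.Perm (Fin n)} (hw : tp w = (dig n : Multiset ℕ)) :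
    (univ.filter fun g : Equiv.Perm (Fin n) => tp g = (dig n : Multiset ℕ)).card * (dig n).prod =
      Fintype.card (Equiv.Perm (Fin n)) := by
  have h1 := Equiv.Perm.card_isConj_mul_eq w
  have hn : (tp w).Nodup := by
    rw [hw, Multiset.coe_nodup]
    exact nodup_dig n
  rw [tp_eq] at hn hw
  have h2 : Fintype.card (Fin n) - w.cycleType.sum ≤ 1 := by
    have h3 := (Multiset.nodup_add.1 hn).2.1
    by_contra h4
    have h5 : 1 < Multiset.count 1 (Multiset.replicate (Fintype.card (Fin n) - w.cycleType.sum) 1) := by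
      rw [Multiset.count_replicate_self]
      omega
    exact absurd (Multiset.nodup_iff_count_le_one.1 h3 1) (not_le.2 h5)
  have h3 : (Fintype.card (Fin n) - w.cycleType.sum).factorial = 1 := Nat.factorial_eq_one.2 h2
  have h4 : ∏ m ∈ w.cycleType.toFinset, (w.cycleType.count m).factorial = 1 := by
    refine Finset.prod_eq_one fun m _ => Nat.factorial_eq_one.2 ?_
    exact Multiset.nodup_iff_count_le_one.1 (Multiset.nodup_add.1 hn).1 m
  have h5 : w.cycleType.prod = (dig n).prod := by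
    have := congrArg Multiset.prod hw
    rw [Multiset.prod_add, Multiset.prod_replicate, one_pow, mul_one, Multiset.prod_coe] at this
    exact this
  rw [h3, h4, h5, one_mul, mul_one] at h1
  rw [Fintype.card_perm, ← h1]
  congr 1
  rw [← Fintype.card_subtype, ← Nat.card_eq_fintype_card]
  refine Nat.card_congr (Equiv.subtypeEquivRight fun g => ?_)
  change tp g = _ ↔ IsConj w g
  rw [← hw, ← tp_eq, Equiv.Perm.partition_eq_of_isConj, Nat.Partition.ext_iff]
  exact eq_comm

/-- **The identity in the symmetric group.** -/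
theorem newtonS (n : ℕ) : NewtonS n := by
  intro ψ hψ w hw
  have h1 : ∀ K : Finset ℕ, (coL (dig n) K : ℂ) * mu (Yn n K) ψ = (Fintype.card (Equiv.Perm (Fin n)) : ℂ)⁻¹ *
      ∑ g : Equiv.Perm (Fin n), ((coL (dig n) K * (pf (Yn n K) g : ℤ) : ℤ) : ℂ) * ψ g := by
    intro K
    rw [mu_eq_sum _ _ hψ, Finset.mul_sum, Finset.mul_sum, Finset.mul_sum]
    refine sum_congr rfl fun g _ => ?_
    push_cast
    ring
  rw [sum_congr rfl fun K _ => h1 K, ← Finset.mul_sum, Finset.sum_comm]
  have h2 : ∀ g : Equiv.Perm (Fin n), ∑ K ∈ (Icc 1 n).powerset, ((coL (dig n) K * (pf (Yn n K) g : ℤ) : ℤ) : ℂ) * ψ g =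
      if tp g = (dig n : Multiset ℕ) then ((dig n).prod : ℂ) * ψ w else 0 := by
    intro g
    rw [← Finset.sum_mul, ← Int.cast_sum, sum_pf]
    by_cases h : tp g = (dig n : Multiset ℕ)
    · rw [if_pos h, if_pos h]
      have h3 : IsConj w g := by
        rw [Equiv.Perm.partition_eq_of_isConj, Nat.Partition.ext_iff]
        exact hw.trans h.symm
      obtain ⟨c, hc⟩ := isConj_iff.1 h3
      rw [← hc, hψ, Int.cast_natCast]
    · rw [if_neg h, if_neg h, Int.cast_zero, zero_mul]
  rw [sum_congr rfl fun g _ => h2 g, ← sum_filter, sum_const, nsmul_eq_mul]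
  have h4 := card_class hw
  have h5 : (Fintype.card (Equiv.Perm (Fin n)) : ℂ) ≠ 0 := by exact_mod_cast Fintype.card_ne_zero
  have h6 : ((univ.filter fun g : Equiv.Perm (Fin n) => tp g = (dig n : Multiset ℕ)).card : ℂ) * ((dig n).prod : ℂ) =
      (Fintype.card (Equiv.Perm (Fin n)) : ℂ) := by exact_mod_cast h4
  rw [← mul_assoc ((univ.filter fun g : Equiv.Perm (Fin n) => tp g = (dig n : Multiset ℕ)).card : ℂ), h6, ← mul_assoc,
    inv_mul_cancel₀ h5, one_mul]

end Cfsg.Agent.H774.CC
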