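import Cfsg.Agent.H364.CC.E1

/-!
# S4884, block D: the function `ρ` for the stable subsets of a permutation

`St x` : the poset of the `x`-stable subsets; `orb x a` : the orbit of `a`;
`rho_St` : `ρ(A, B) = |B| - |A|` if `B \ A` is one orbit, and `0` otherwise.
-/

set_option autoImplicit false
set_option linter.unusedSectionVars false

namespace Cfsg.Agent.H774.CC

open Cfsg.Agent.H439.CC Cfsg.Agent.H364.CC Finset

universe u

variable {α : Type u} [Fintype α] [DecidableEq α]

/-- the stable subsets -/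
abbrev St (x : Equiv.Perm α) : Type u := {A : Finset α // ∀ a, x a ∈ A ↔ a ∈ A}

/-- the cardinality -/
def rkF (x : Equiv.Perm α) (A : St x) : ℕ := A.1.card

theorem rkF_strictMono (x : Equiv.Perm α) : StrictMono (rkF x) := fun _ _ h => card_lt_card h

/-- the orbit of `a` -/
def orb (x : Equiv.Perm α) (a : α) : Finset α := univ.filter fun b => x.SameCycle a b

theorem mem_orb {x : Equiv.Perm α} {a b : α} : b ∈ orb x a ↔ x.SameCycle a b := by
  unfold orb
  rw [mem_filter]
  exact ⟨fun h => h.2, fun h => ⟨mem_univ _, h⟩⟩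

theorem self_mem_orb (x : Equiv.Perm α) (a : α) : a ∈ orb x a := mem_orb.2 (Equiv.Perm.SameCycle.refl x a)

theorem orb_eq {x : Equiv.Perm α} {a b : α} (h : x.SameCycle a b) : orb x a = orb x b := by
  ext c
  rw [mem_orb, mem_orb]
  exact ⟨fun h' => h.symm.trans h', fun h' => h.trans h'⟩

theorem orb_stable (x : Equiv.Perm α) (a b : α) : x b ∈ orb x a ↔ b ∈ orb x a := by
  rw [mem_orb, mem_orb, Equiv.Perm.sameCycle_apply_right]

theorem mem_iff_of_sameCycle {x : Equiv.Perm α} (A : St x) {a b : α} (h : x.SameCycle a b) : a ∈ A.1 ↔ b ∈ A.1 := by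
  obtain ⟨i, rfl⟩ := h
  have h1 : ∀ (n : ℕ) (c : α), (x ^ n) c ∈ A.1 ↔ c ∈ A.1 := by
    intro n
    induction n with
    | zero => intro c; rfl
    | succ n ih =>
      intro c
      rw [pow_succ', Equiv.Perm.mul_apply, A.2, ih]
  cases i with
  | ofNat n =>
    rw [Int.ofNat_eq_natCast, zpow_natCast]
    exact (h1 n a).symm
  | negSucc n =>
    have := h1 (n + 1) ((x ^ Int.negSucc n) a)
    rw [← Equiv.Perm.mul_apply, zpow_negSucc, mul_inv_cancel, Equiv.Perm.one_apply] at this
    exact this

theorem orb_subset {x : Equiv.Perm α} (A : St x) {a : α} (h : a ∈ A.1) : orb x a ⊆ A.1 := fun _ hb =>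
  (mem_iff_of_sameCycle A (mem_orb.1 hb)).1 h

theorem orb_disjoint {x : Equiv.Perm α} (A : St x) {a : α} (h : a ∉ A.1) : Disjoint A.1 (orb x a) :=
  disjoint_left.2 fun _ hb hb' => h ((mem_iff_of_sameCycle A (mem_orb.1 hb')).2 hb)

/-- `A` and the orbit of `a` -/
def addO (x : Equiv.Perm α) (A : St x) (a : α) : St x := ⟨A.1 ∪ orb x a, fun b => by
  rw [mem_union, mem_union, A.2, orb_stable]⟩

theorem addO_val (x : Equiv.Perm α) (A : St x) (a : α) : (addO x A a).1 = A.1 ∪ orb x a := rfl

theorem lt_addO {x : Equiv.Perm α} {A : St x} {a : α} (h : a ∉ A.1) : A < addO x A a := by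
  refine lt_of_le_of_ne (fun b hb => mem_union_left _ hb) fun e => h ?_
  rw [e]
  exact mem_union_right _ (self_mem_orb x a)

theorem addO_le {x : Equiv.Perm α} {A B : St x} {a : α} (hAB : A ≤ B) (h : a ∈ B.1) : addO x A a ≤ B :=
  union_subset hAB (orb_subset B h)

section rho

variable {x : Equiv.Perm α} {A B : St x} {k : ℕ}

/-- the coefficient of a chain -/
theorem coL_chain (hk : rkF x B = rkF x A + k) {c : Finset (St x)} (hc : ChB A B c) :
    coL [k] (im (rkF x) A c) =
      ∑ a ∈ univ.filter (fun a => a ∉ A.1), if ∀ C ∈ c, a ∈ C.1 then (-1 : ℤ) ^ (c.card - 1) else 0 := by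
  classical
  obtain ⟨h1, h2, h3⟩ := hc
  have hkm : k ∈ im (rkF x) A c := mem_image.2 ⟨B, h3, by omega⟩
  have hinj : Set.InjOn (fun C : St x => rkF x C - rkF x A) (c : Set (St x)) := by
    intro C hC C' hC' e
    have e' : rkF x C - rkF x A = rkF x C' - rkF x A := e
    have hCA := (rkF_strictMono x) (h2 C hC).1
    have hCA' := (rkF_strictMono x) (h2 C' hC').1
    by_contra hne
    rcases h1 hC hC' hne with h | h
    · have := (rkF_strictMono x) (lt_of_le_of_ne h hne)
      omega
    · have := (rkF_strictMono x) (lt_of_le_of_ne h (Ne.symm hne))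
      omega
  have hcard : (im (rkF x) A c).card = c.card := card_image_of_injOn hinj
  have hle : ∀ y ∈ im (rkF x) A c, y ≤ k := by
    intro y hy
    obtain ⟨C, hC, rfl⟩ := mem_image.1 hy
    have := (rkF_strictMono x).monotone (h2 C hC).2
    omega
  rw [coL_cons hkm]
  have e1 : (im (rkF x) A c).filter (fun y => k < y) = ∅ := by
    rw [filter_eq_empty_iff]
    intro y hy
    have := hle y hy
    omega
  have e2 : ((im (rkF x) A c).filter fun y => y < k).card = c.card - 1 := by
    have : (im (rkF x) A c).filter (fun y => y < k) = (im (rkF x) A c).erase k := by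
      ext y
      rw [mem_filter, mem_erase]
      constructor
      · rintro ⟨h, h'⟩
        exact ⟨by omega, h⟩
      · rintro ⟨h, h'⟩
        have := hle y h'
        exact ⟨h', by omega⟩
    rw [this, card_erase_of_mem hkm, hcard]
  rw [e1, image_empty, coL_nil, if_pos rfl, mul_one, e2, ← sum_filter, sum_const, nsmul_eq_mul, mul_comm]
  congr 1
  -- the least element
  obtain ⟨C, hC, hCm⟩ : ∃ C ∈ c, ∀ C' ∈ c, C ≤ C' := by
    obtain ⟨C, hC, hm⟩ := exists_min_image c (rkF x) ⟨B, h3⟩
    refine ⟨C, hC, fun C' hC' => ?_⟩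
    rcases eq_or_ne C C' with rfl | hne
    · exact le_rfl
    rcases h1 hC hC' hne with h | h
    · exact h
    · exact absurd (hm C' hC') (not_le.2 ((rkF_strictMono x) (lt_of_le_of_ne h (Ne.symm hne))))
  have e3 : (im (rkF x) A c).min' ⟨k, hkm⟩ = rkF x C - rkF x A := by
    apply le_antisymm
    · exact min'_le _ _ (mem_image.2 ⟨C, hC, rfl⟩)
    · refine le_min' _ _ _ fun y hy => ?_
      obtain ⟨C', hC', rfl⟩ := mem_image.1 hy
      exact Nat.sub_le_sub_right ((rkF_strictMono x).monotone (hCm C' hC')) _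
  have e4 : (univ.filter (fun a => a ∉ A.1)).filter (fun a => ∀ C ∈ c, a ∈ C.1) = C.1 \ A.1 := by
    ext a
    rw [mem_filter, mem_filter, mem_sdiff]
    constructor
    · rintro ⟨⟨-, h⟩, h'⟩
      exact ⟨h' C hC, h⟩
    · rintro ⟨h, h'⟩
      exact ⟨⟨mem_univ _, h'⟩, fun C' hC' => hCm C' hC' h⟩
  rw [e3, e4, card_sdiff_of_subset (le_of_lt (h2 C hC).1)]
  rfl

/-- the involution -/
theorem sum_inv (a : α) (ha : a ∉ A.1) (hAB : A < B) (hab : a ∈ B.1) (hne : addO x A a ≠ B) [DecidablePred (ChB A B)]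
    [DecidableEq (St x)] :
    ∑ c ∈ univ.filter (ChB A B), (if ∀ C ∈ c, a ∈ C.1 then (-1 : ℤ) ^ (c.card - 1) else 0) = 0 := by
  set E := addO x A a with hE
  have hEB : E ≤ B := addO_le hAB.le hab
  rw [← sum_filter]
  set S := (univ.filter (ChB A B)).filter (fun c => ∀ C ∈ c, a ∈ C.1) with hS
  have hcard1 : ∀ c ∈ S, 1 ≤ (c.erase E).card := by
    intro c hc
    rw [hS, mem_filter, mem_filter] at hc
    exact Finset.card_pos.2 ⟨B, mem_erase.2 ⟨Ne.symm hne, hc.1.2.2.2⟩⟩
  have hel : ∀ c ∈ S, c.erase E ∈ S := by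
    intro c hc
    rw [hS, mem_filter, mem_filter] at hc ⊢
    obtain ⟨⟨-, h1, h2, h3⟩, h4⟩ := hc
    exact ⟨⟨mem_univ _, h1.mono (by rw [coe_erase]; exact Set.sdiff_subset), fun C hC => h2 C (mem_of_mem_erase hC),
      mem_erase.2 ⟨Ne.symm hne, h3⟩⟩, fun C hC => h4 C (mem_of_mem_erase hC)⟩
  have hins : ∀ c ∈ S, insert E c ∈ S := by
    intro c hc
    rw [hS, mem_filter, mem_filter] at hc ⊢
    obtain ⟨⟨-, h1, h2, h3⟩, h4⟩ := hc
    refine ⟨⟨mem_univ _, ?_, ?_, mem_insert_of_mem h3⟩, ?_⟩
    · rw [coe_insert]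
      refine h1.insert fun C hC _ => Or.inl ?_
      exact addO_le (le_of_lt (h2 C hC).1) (h4 C hC)
    · intro C hC
      rcases mem_insert.1 hC with rfl | hC
      · exact ⟨lt_addO ha, hEB⟩
      · exact h2 C hC
    · intro C hC
      rcases mem_insert.1 hC with rfl | hC
      · exact mem_union_right _ (self_mem_orb x a)
      · exact h4 C hC
  refine sum_involution (fun c _ => if E ∈ c then c.erase E else insert E c) ?_ ?_ ?_ ?_
  · intro c hc
    by_cases h : E ∈ c
    · rw [if_pos h]
      have h1 := hcard1 c hc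
      have h2 : c.card = (c.erase E).card + 1 := by rw [card_erase_of_mem h] at h1 ⊢; omega
      rw [h2, Nat.add_sub_cancel]
      obtain ⟨m, hm⟩ : ∃ m, (c.erase E).card = m + 1 := ⟨(c.erase E).card - 1, by omega⟩
      rw [hm, Nat.add_sub_cancel, pow_succ]
      ring
    · rw [if_neg h, card_insert_of_notMem h, Nat.add_sub_cancel]
      have h1 := hcard1 c hc
      rw [erase_eq_of_notMem h] at h1
      obtain ⟨m, hm⟩ : ∃ m, c.card = m + 1 := ⟨c.card - 1, by omega⟩
      rw [hm, Nat.add_sub_cancel, pow_succ]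
      ring
  · intro c _ _
    by_cases h : E ∈ c
    · rw [if_pos h]
      intro e
      have := (mem_erase.1 (e.symm ▸ h : E ∈ c.erase E)).1
      exact this rfl
    · rw [if_neg h]
      intro e
      exact h (e ▸ mem_insert_self E c)
  · intro c hc
    by_cases h : E ∈ c
    · rw [if_pos h]; exact hel c hc
    · rw [if_neg h]; exact hins c hc
  · intro c _
    by_cases h : E ∈ c
    · rw [if_pos h, if_neg (notMem_erase E c), insert_erase h]
    · rw [if_neg h, if_pos (mem_insert_self E c), erase_insert h]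

/-- **`ρ` for the stable subsets** -/
theorem rho_St (hAB : A < B) (hk : rkF x B = rkF x A + k) :
    rho (rkF x) k A B = if ∃ a, a ∉ A.1 ∧ B = addO x A a then (k : ℤ) else 0 := by
  classical
  rw [rho_eq, finsum_eq_sum_of_fintype]
  have e0 : ∑ c : {c : Finset (St x) // ChB A B c}, coL [k] (im (rkF x) A c.1) =
      ∑ c ∈ univ.filter (ChB A B), ∑ a ∈ univ.filter (fun a => a ∉ A.1),
        if ∀ C ∈ c, a ∈ C.1 then (-1 : ℤ) ^ (c.card - 1) else 0 := by
    rw [← Finset.sum_subtype_eq_sum_filter, Finset.subtype_univ]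
    exact sum_congr rfl fun c _ => coL_chain hk c.2
  rw [e0, sum_comm]
  have e1 : ∀ a ∈ univ.filter (fun a => a ∉ A.1), (∑ c ∈ univ.filter (ChB A B),
      if ∀ C ∈ c, a ∈ C.1 then (-1 : ℤ) ^ (c.card - 1) else 0) = if B = addO x A a then 1 else 0 := by
    intro a ha
    have ha' : a ∉ A.1 := (mem_filter.1 ha).2
    by_cases hE : B = addO x A a
    · rw [if_pos hE]
      have hchB : ChB A B ({B} : Finset (St x)) := by
        refine ⟨?_, fun C hC => ?_, mem_singleton_self B⟩
        · rw [coe_singleton]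
          exact Set.subsingleton_singleton.isChain
        · rw [mem_singleton.1 hC]
          exact ⟨hAB, le_rfl⟩
      rw [sum_eq_single ({B} : Finset (St x))]
      · rw [if_pos fun C hC => ?_, card_singleton, Nat.sub_self, pow_zero]
        rw [mem_singleton.1 hC, hE]
        exact mem_union_right _ (self_mem_orb x a)
      · intro c hc hne
        rw [if_neg]
        intro h
        obtain ⟨h1, h2, h3⟩ := (mem_filter.1 hc).2
        apply hne
        ext C
        rw [mem_singleton]
        constructor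
        · intro hC
          apply le_antisymm (h2 C hC).2
          rw [hE]
          exact addO_le (le_of_lt (h2 C hC).1) (h C hC)
        · rintro rfl
          exact h3
      · intro h
        exact absurd (mem_filter.2 ⟨mem_univ _, hchB⟩) h
    · rw [if_neg hE]
      by_cases hab : a ∈ B.1
      · exact sum_inv a ha' hAB hab (Ne.symm hE)
      · refine sum_eq_zero fun c hc => ?_
        rw [if_neg]
        intro h
        exact hab (h B (mem_filter.1 hc).2.2.2)
  rw [sum_congr rfl e1]
  by_cases h : ∃ a, a ∉ A.1 ∧ B = addO x A a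
  · rw [if_pos h, ← sum_filter, sum_const, nsmul_eq_mul, mul_one]
    obtain ⟨a, ha, hB⟩ := h
    congr 1
    have e2 : (univ.filter (fun a => a ∉ A.1)).filter (fun a => B = addO x A a) = B.1 \ A.1 := by
      ext b
      rw [mem_filter, mem_filter, mem_sdiff]
      constructor
      · rintro ⟨⟨-, h⟩, h'⟩
        refine ⟨?_, h⟩
        rw [h']
        exact mem_union_right _ (self_mem_orb x b)
      · rintro ⟨h, h'⟩
        refine ⟨⟨mem_univ _, h'⟩, ?_⟩
        rw [hB, addO_val, mem_union] at h
        have h1 : x.SameCycle a b := mem_orb.1 (h.resolve_left h')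
        rw [hB]
        apply Subtype.ext
        rw [addO_val, addO_val, orb_eq h1]
    rw [e2, card_sdiff_of_subset (le_of_lt hAB)]
    change rkF x B - rkF x A = k
    omega
  · rw [if_neg h]
    refine sum_eq_zero fun a ha => ?_
    rw [if_neg]
    intro hB
    exact h ⟨a, (mem_filter.1 ha).2, hB⟩

end rho

end Cfsg.Agent.H774.CC
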