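import Cfsg.Agent.H774.CC.Rho
import Cfsg.Agent.H215.WB.WSide

/-!
# S4884, block D: `TT` for the stable subsets of a permutation

`TT_St` : `TT` above `A` is the product of the `ds` if the lengths of the orbits outside of `A` are the `ds`, and `0`
otherwise (`ds` without repetitions);
`tyO_bot` : the lengths of the orbits are the parts of the partition.
-/

set_option autoImplicit false
set_option linter.unusedSectionVars false

namespace Cfsg.Agent.H774.CC

open Cfsg.Agent.H439.CC Cfsg.Agent.H364.CC Finset

universe u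

variable {α : Type u} [Fintype α] [DecidableEq α]

/-- the orbits outside of `A` -/
def orbs (x : Equiv.Perm α) (A : Finset α) : Finset (Finset α) := (univ \ A).image (orb x)

/-- the lengths of the orbits outside of `A` -/
def tyO (x : Equiv.Perm α) (A : Finset α) : Multiset ℕ := (orbs x A).val.map card

theorem mem_orbs {x : Equiv.Perm α} {A O : Finset α} : O ∈ orbs x A ↔ ∃ a, a ∉ A ∧ orb x a = O := by
  unfold orbs
  rw [mem_image]
  constructor
  · rintro ⟨a, ha, rfl⟩
    exact ⟨a, (mem_sdiff.1 ha).2, rfl⟩
  · rintro ⟨a, ha, rfl⟩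
    exact ⟨a, mem_sdiff.2 ⟨mem_univ _, ha⟩, rfl⟩

theorem orbs_addO {x : Equiv.Perm α} (A : St x) {a : α} :
    orbs x (addO x A a).1 = (orbs x A.1).erase (orb x a) := by
  ext O
  rw [mem_orbs, mem_erase, mem_orbs]
  constructor
  · rintro ⟨b, hb, rfl⟩
    rw [addO_val, mem_union, not_or] at hb
    refine ⟨fun e => hb.2 ?_, b, hb.1, rfl⟩
    rw [← e]
    exact self_mem_orb x b
  · rintro ⟨hne, b, hb, rfl⟩
    refine ⟨b, ?_, rfl⟩
    rw [addO_val, mem_union, not_or]
    exact ⟨hb, fun h => hne (orb_eq (mem_orb.1 h)).symm⟩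

theorem tyO_addO {x : Equiv.Perm α} (A : St x) {a : α} (ha : a ∉ A.1) :
    tyO x A.1 = (orb x a).card ::ₘ tyO x (addO x A a).1 := by
  unfold tyO
  have h : orb x a ∈ (orbs x A.1).val := mem_orbs.2 ⟨a, ha, rfl⟩
  rw [orbs_addO A, erase_val, ← Multiset.map_cons, Multiset.cons_erase h]

theorem rkF_addO {x : Equiv.Perm α} (A : St x) {a : α} (ha : a ∉ A.1) :
    rkF x (addO x A a) = rkF x A + (orb x a).card := card_union_of_disjoint (orb_disjoint A ha)

theorem TT_St (x : Equiv.Perm α) : ∀ ds : List ℕ, (∀ d ∈ ds, 1 ≤ d) → ds.Nodup → ∀ A : St x,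
    ds.sum + rkF x A = Fintype.card α →
    TT (rkF x) ds A = if tyO x A.1 = (ds : Multiset ℕ) then ((ds.prod : ℕ) : ℤ) else 0 := by
  intro ds
  induction ds with
  | nil =>
    intro _ _ A hA
    have h1 : A.1 = univ := by
      rw [← card_eq_iff_eq_univ, ← hA, List.sum_nil, zero_add]
      rfl
    have h2 : tyO x A.1 = ((([] : List ℕ)) : Multiset ℕ) := by
      unfold tyO orbs
      rw [h1, sdiff_self, bot_eq_empty, image_empty]
      rfl
    rw [if_pos h2, List.prod_nil, Nat.cast_one, TT_eq]
    have h3 : ∀ c : {c : Finset (St x) // Ch A c}, coL [] (im (rkF x) A c.1) = 1 := by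
      intro c
      have : c.1 = ∅ := by
        rw [eq_empty_iff_forall_notMem]
        intro C hC
        have h4 := c.2.2 C hC
        refine (lt_irrefl A.1.card) (lt_of_lt_of_le (card_lt_card h4) ?_)
        rw [h1]
        exact card_le_card (subset_univ _)
      rw [this]
      unfold im
      rw [image_empty, coL_nil, if_pos rfl]
    rw [finsum_congr h3]
    have h5 : Unique {c : Finset (St x) // Ch A c} := ⟨⟨⟨∅, by simp [IsChain], by simp⟩⟩, fun c => by
      apply Subtype.ext
      change c.1 = ∅
      rw [eq_empty_iff_forall_notMem]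
      intro C hC
      have h4 := c.2.2 C hC
      refine (lt_irrefl A.1.card) (lt_of_lt_of_le (card_lt_card h4) ?_)
      rw [h1]
      exact card_le_card (subset_univ _)⟩
    rw [finsum_unique]
  | cons k ds ih =>
    intro hd hnd A hA
    have hk1 : 1 ≤ k := hd k (List.mem_cons_self ..)
    rw [List.nodup_cons] at hnd
    rw [List.sum_cons] at hA
    have ih' := ih (fun d h => hd d (List.mem_cons_of_mem _ h)) hnd.2
    rw [e1 (St x) (rkF x) (rkF_strictMono x) k ds A hk1 fun d h => hd d (List.mem_cons_of_mem _ h),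
      finsum_eq_sum_of_fintype]
    -- the sum over the orbits
    have h1 : ∀ B : {B : St x // A < B ∧ rkF x B = rkF x A + k}, rho (rkF x) k A B.1 * TT (rkF x) ds B.1 =
        if ∃ a, a ∉ A.1 ∧ B.1 = addO x A a then
          (if tyO x A.1 = (k :: ds : List ℕ) then (((k :: ds).prod : ℕ) : ℤ) else 0) else 0 := by
      rintro ⟨B, hAB, hB⟩
      rw [rho_St hAB hB, ih' B (by omega)]
      by_cases h : ∃ a, a ∉ A.1 ∧ B = addO x A a
      · rw [if_pos h, if_pos h]
        obtain ⟨a, ha, rfl⟩ := h
        have hka : (orb x a).card = k := by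
          have := rkF_addO A ha
          omega
        rw [tyO_addO A ha, hka, ← Multiset.cons_coe]
        by_cases h' : tyO x (addO x A a).1 = (ds : Multiset ℕ)
        · rw [if_pos h', if_pos (by rw [h']), List.prod_cons, Nat.cast_mul]
        · rw [if_neg h', if_neg fun e => h' ((Multiset.cons_inj_right k).1 e), mul_zero]
      · rw [if_neg h, if_neg h, zero_mul]
    rw [sum_congr rfl fun B _ => h1 B, ← sum_filter, sum_const, nsmul_eq_mul]
    by_cases h' : tyO x A.1 = (k :: ds : List ℕ)
    · rw [if_pos h']
      -- the number of orbits of length `k`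
      have h2 : (univ.filter fun B : {B : St x // A < B ∧ rkF x B = rkF x A + k} => ∃ a, a ∉ A.1 ∧ B.1 = addO x A a).card
          = ((orbs x A.1).filter fun O => k = O.card).card := by
        refine card_bij (fun B _ => B.1.1 \ A.1) ?_ ?_ ?_
        · rintro ⟨B, hAB, hB⟩ h
          obtain ⟨a, ha, hBa⟩ := (mem_filter.1 h).2
          have hBa' : B = addO x A a := hBa
          subst hBa'
          have e : (addO x A a).1 \ A.1 = orb x a := by
            rw [addO_val, union_sdiff_left, sdiff_eq_self_of_disjoint (orb_disjoint A ha).symm]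
          rw [mem_filter]
          change (addO x A a).1 \ A.1 ∈ orbs x A.1 ∧ k = ((addO x A a).1 \ A.1).card
          rw [e]
          refine ⟨mem_orbs.2 ⟨a, ha, rfl⟩, ?_⟩
          have := rkF_addO A ha
          omega
        · rintro ⟨B, hAB, hB⟩ _ ⟨B', hAB', hB'⟩ _ e
          have e' : B.1 \ A.1 = B'.1 \ A.1 := e
          apply Subtype.ext
          apply Subtype.ext
          change B.1 = B'.1
          rw [← sdiff_union_of_subset (le_of_lt hAB : A.1 ⊆ B.1), e', sdiff_union_of_subset (le_of_lt hAB' : A.1 ⊆ B'.1)]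
        · intro O hO
          obtain ⟨hO, hk⟩ := mem_filter.1 hO
          obtain ⟨a, ha, rfl⟩ := mem_orbs.1 hO
          refine ⟨⟨addO x A a, lt_addO ha, by rw [rkF_addO A ha, hk]⟩, mem_filter.2 ⟨mem_univ _, a, ha, rfl⟩, ?_⟩
          change (addO x A a).1 \ A.1 = orb x a
          rw [addO_val, union_sdiff_left, sdiff_eq_self_of_disjoint (orb_disjoint A ha).symm]
      have h3 : ((orbs x A.1).filter fun O => k = O.card).card = Multiset.count k (tyO x A.1) := by
        unfold tyO
        rw [Multiset.count_map]
        rfl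
      rw [h2, h3, h', Multiset.coe_count, List.count_cons_self, List.count_eq_zero_of_not_mem hnd.1]
      simp
    · rw [if_neg h', mul_zero]

/-- the lengths of the orbits -/
theorem tyO_empty (x : Equiv.Perm α) : tyO x ∅ = Cfsg.Agent.H215.WB.tp x := by
  have h1 : orbs x ∅ = (x.cycleFactorsFinset.image Equiv.Perm.support) ∪ ((univ \ x.support).image fun a => {a}) := by
    ext O
    rw [mem_orbs, mem_union, mem_image, mem_image]
    constructor
    · rintro ⟨a, -, rfl⟩
      by_cases ha : a ∈ x.support
      · left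
        refine ⟨x.cycleOf a, Equiv.Perm.cycleOf_mem_cycleFactorsFinset_iff.2 ha, ?_⟩
        ext b
        rw [Equiv.Perm.mem_support_cycleOf_iff, mem_orb]
        exact ⟨fun h => h.1, fun h => ⟨h, ha⟩⟩
      · right
        refine ⟨a, mem_sdiff.2 ⟨mem_univ _, ha⟩, ?_⟩
        ext b
        rw [mem_singleton, mem_orb]
        constructor
        · rintro rfl
          exact Equiv.Perm.SameCycle.refl _ _
        · intro h
          have h2 : x a = a := Equiv.Perm.notMem_support.1 ha
          exact (h.eq_of_left h2).symm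
    · rintro (⟨c, hc, rfl⟩ | ⟨a, ha, rfl⟩)
      · have hcyc := (Equiv.Perm.mem_cycleFactorsFinset_iff.1 hc).1
        obtain ⟨a, ha⟩ := hcyc.nonempty_support
        refine ⟨a, notMem_empty _, ?_⟩
        rw [Equiv.Perm.cycle_is_cycleOf ha hc]
        have hax : a ∈ x.support := Equiv.Perm.mem_cycleFactorsFinset_support_le hc ha
        ext b
        rw [Equiv.Perm.mem_support_cycleOf_iff, mem_orb]
        exact ⟨fun h => ⟨h, hax⟩, fun h => h.1⟩
      · refine ⟨a, notMem_empty _, ?_⟩
        have ha' : a ∉ x.support := (mem_sdiff.1 ha).2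
        ext b
        rw [mem_singleton, mem_orb]
        constructor
        · intro h
          have h2 : x a = a := Equiv.Perm.notMem_support.1 ha'
          exact (h.eq_of_left h2).symm
        · rintro rfl
          exact Equiv.Perm.SameCycle.refl _ _
  have h2 : Set.InjOn Equiv.Perm.support (x.cycleFactorsFinset : Set (Equiv.Perm α)) := by
    intro c hc c' hc' e
    obtain ⟨a, ha⟩ := (Equiv.Perm.mem_cycleFactorsFinset_iff.1 hc).1.nonempty_support
    rw [Equiv.Perm.cycle_is_cycleOf ha hc, Equiv.Perm.cycle_is_cycleOf (e ▸ ha) hc']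
  have h3 : Disjoint (x.cycleFactorsFinset.image Equiv.Perm.support) ((univ \ x.support).image fun a => {a}) := by
    rw [disjoint_left]
    intro O hO hO'
    obtain ⟨c, hc, rfl⟩ := mem_image.1 hO
    obtain ⟨a, ha, e⟩ := mem_image.1 hO'
    have h4 : a ∈ c.support := by
      rw [← e]
      exact mem_singleton_self a
    exact (mem_sdiff.1 ha).2 (Equiv.Perm.mem_cycleFactorsFinset_support_le hc h4)
  unfold tyO
  rw [h1, ← disjUnion_eq_union _ _ h3, disjUnion_val, Multiset.map_add, image_val_of_injOn h2,
    image_val_of_injOn (fun a _ b _ h => singleton_injective h), Multiset.map_map, Multiset.map_map,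
    Cfsg.Agent.H215.WB.tp_eq]
  congr 1
  have h5 : (univ \ x.support).val.map (card ∘ fun a : α => ({a} : Finset α)) =
      (univ \ x.support).val.map (Function.const α 1) := by
    refine Multiset.map_congr rfl fun a _ => ?_
    exact card_singleton a
  rw [h5, Multiset.map_const, card_val, card_sdiff_of_subset (subset_univ _), Equiv.Perm.sum_cycleType, card_univ]

end Cfsg.Agent.H774.CC
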