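import Cfsg.Agent.H774.CC.TT

/-!
# S4884, block D: the fixed points of a permutation on the cosets of a Young subgroup

`pf_Yn` : they are the flags of stable subsets.
-/

set_option autoImplicit false
set_option linter.unusedSectionVars false

namespace Cfsg.Agent.H774.CC

open Cfsg.Agent.H439.CC Cfsg.Agent.H364.CC Finset
open Cfsg.Agent.H215.WB (Yn)
open scoped Pointwise

variable {n : ℕ}

/-- the initial segments -/
def seg (n m : ℕ) : Finset (Fin n) := univ.filter fun i : Fin n => (i : ℕ) < m

theorem mem_seg {m : ℕ} {i : Fin n} : i ∈ seg n m ↔ (i : ℕ) < m := by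
  unfold seg
  rw [mem_filter]
  exact and_iff_right (mem_univ _)

theorem card_seg {m : ℕ} (h : m ≤ n) : (seg n m).card = m := by
  have h1 : seg n m = (univ : Finset (Fin m)).map (Fin.castLEEmb h) := by
    ext i
    rw [mem_seg, mem_map]
    constructor
    · intro hi
      exact ⟨⟨i, hi⟩, mem_univ _, Fin.ext rfl⟩
    · rintro ⟨j, -, rfl⟩
      exact j.2
  rw [h1, card_map, card_univ, Fintype.card_fin]

/-- the standard flag -/
def stdF (n : ℕ) (K : Finset ℕ) : Finset (Finset (Fin n)) := K.image (seg n)

theorem mem_smul {g : Equiv.Perm (Fin n)} {A : Finset (Fin n)} {i : Fin n} : g i ∈ g • A ↔ i ∈ A := by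
  have := Finset.smul_mem_smul_finset_iff (a := g) (b := i) (s := A)
  exact this

theorem smul_eq_iff {g : Equiv.Perm (Fin n)} {A : Finset (Fin n)} : g • A = A ↔ ∀ i, g i ∈ A ↔ i ∈ A := by
  constructor
  · intro h i
    have h1 := mem_smul (g := g) (A := A) (i := i)
    rwa [h] at h1
  · intro h
    ext i
    obtain ⟨j, rfl⟩ := g.surjective i
    rw [mem_smul, h]

theorem isChain_stdF (K : Finset ℕ) : IsChain (· ≤ ·) (stdF n K : Set (Finset (Fin n))) := by
  rintro _ h _ h' -
  obtain ⟨a, -, rfl⟩ := mem_image.1 (mem_coe.1 h)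
  obtain ⟨b, -, rfl⟩ := mem_image.1 (mem_coe.1 h')
  rcases le_total a b with hab | hab
  · left
    intro i hi
    rw [mem_seg] at hi ⊢
    omega
  · right
    intro i hi
    rw [mem_seg] at hi ⊢
    omega

theorem image_card_stdF {K : Finset ℕ} (hK : K ⊆ Icc 1 n) : (stdF n K).image card = K := by
  unfold stdF
  rw [image_image]
  have h1 : ∀ m ∈ K, (card ∘ seg n) m = id m := fun m hm => card_seg (mem_Icc.1 (hK hm)).2
  rw [image_congr (g := id) (fun m hm => h1 m hm), image_id]

theorem mem_stab {K : Finset ℕ} (hK : K ⊆ Icc 1 n) {g : Equiv.Perm (Fin n)} :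
    g ∈ MulAction.stabilizer (Equiv.Perm (Fin n)) (stdF n K) ↔ ∀ m ∈ K, ∀ i : Fin n, (g i : ℕ) < m ↔ (i : ℕ) < m := by
  rw [MulAction.mem_stabilizer_iff]
  constructor
  · intro h m hm i
    have h1 : g • seg n m ∈ stdF n K := by
      rw [← h]
      exact Finset.smul_mem_smul_finset (mem_image_of_mem _ hm)
    obtain ⟨m', hm', e⟩ := mem_image.1 h1
    have h2 : m' = m := by
      have := congrArg card e
      rwa [Finset.card_smul_finset, card_seg (mem_Icc.1 (hK hm)).2, card_seg (mem_Icc.1 (hK hm')).2] at this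
    rw [h2] at e
    have h3 := smul_eq_iff.1 e.symm i
    rwa [mem_seg, mem_seg] at h3
  · intro h
    have h1 : ∀ m ∈ K, g • seg n m = seg n m := fun m hm => smul_eq_iff.2 fun i => by
      rw [mem_seg, mem_seg]
      exact h m hm i
    ext A
    rw [Finset.mem_smul_finset]
    constructor
    · rintro ⟨B, hB, rfl⟩
      obtain ⟨m, hm, rfl⟩ := mem_image.1 hB
      rw [h1 m hm]
      exact hB
    · intro hA
      obtain ⟨m, hm, rfl⟩ := mem_image.1 hA
      exact ⟨_, hA, h1 m hm⟩

theorem isSwap_gen (K : Finset ℕ) : ∀ f ∈ {σ : Equiv.Perm (Fin n) | ∃ (i : Fin n) (h : (i : ℕ) + 1 < n),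
    (i : ℕ) + 1 ∉ K ∧ σ = Equiv.swap i ⟨i + 1, h⟩}, f.IsSwap := by
  rintro _ ⟨i, h, -, rfl⟩
  refine ⟨i, ⟨i + 1, h⟩, ?_, rfl⟩
  intro e
  have := congrArg Fin.val e
  simp at this

theorem stab_stdF {K : Finset ℕ} (hK : K ⊆ Icc 1 n) :
    MulAction.stabilizer (Equiv.Perm (Fin n)) (stdF n K) = Yn n K := by
  apply le_antisymm
  · intro g hg
    rw [mem_stab hK] at hg
    -- points in the same block
    have key : ∀ d : ℕ, ∀ a b : Fin n, (b : ℕ) = a + d → (∀ m ∈ K, (a : ℕ) < m ↔ (b : ℕ) < m) →
        b ∈ MulAction.orbit (Yn n K) a := by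
      intro d
      induction d with
      | zero =>
        intro a b h _
        have : b = a := Fin.ext (by omega)
        rw [this]
        exact MulAction.mem_orbit_self a
      | succ d ih =>
        intro a b h hm
        have hb := b.2
        have h1 := ih a ⟨a + d, by omega⟩ rfl (fun m hmK => by
          have h2 := hm m hmK
          constructor
          · intro h3
            have := h2.1 h3
            change (a : ℕ) + d < m
            omega
          · intro h3
            change (a : ℕ) + d < m at h3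
            omega)
        have h2 : Equiv.swap (⟨a + d, by omega⟩ : Fin n) b ∈ Yn n K := by
          refine Subgroup.subset_closure ⟨⟨a + d, by omega⟩, by change (a : ℕ) + d + 1 < n; omega, ?_, ?_⟩
          · change (a : ℕ) + d + 1 ∉ K
            intro hK'
            have := (hm _ hK').1 (by omega)
            omega
          · congr 1
            exact Fin.ext (by change (b : ℕ) = a + d + 1; omega)
        have h3 : b = (⟨_, h2⟩ : Yn n K) • (⟨a + d, by omega⟩ : Fin n) := by
          change b = Equiv.swap _ _ _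
          rw [Equiv.swap_apply_left]
        rw [h3]
        exact (MulAction.orbit_eq_iff.2 h1) ▸ MulAction.mem_orbit _ _
    unfold Yn
    rw [mem_closure_isSwap (isSwap_gen K)]
    refine ⟨Set.toFinite _, fun a => ?_⟩
    rcases le_total (a : ℕ) (g a : ℕ) with h | h
    · exact key ((g a : ℕ) - a) a (g a) (by omega) fun m hm => (hg m hm a).symm
    · exact MulAction.mem_orbit_symm.1 (key ((a : ℕ) - g a) (g a) a (by omega) fun m hm => hg m hm a)
  · unfold Yn
    refine (Subgroup.closure_le _).2 ?_
    rintro _ ⟨i, h, hi, rfl⟩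
    refine SetLike.mem_coe.2 ((mem_stab hK).2 fun m hm j => ?_)
    have hne : (i : ℕ) + 1 ≠ m := fun e => hi (e ▸ hm)
    rw [Equiv.swap_apply_def]
    split_ifs with h1 h2
    · rw [h1]
      change (i : ℕ) + 1 < m ↔ _
      omega
    · rw [h2]
      change _ ↔ (i : ℕ) + 1 < m
      omega
    · rfl

/-- a lower set of `Fin n` is an initial segment -/
theorem lower_eq_seg {A : Finset (Fin n)} (h : ∀ i j : Fin n, i ≤ j → j ∈ A → i ∈ A) : A = seg n A.card := by
  have hc : A.card ≤ n := by
    have := card_le_univ A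
    rwa [Fintype.card_fin] at this
  have h1 := card_seg hc
  by_cases h2 : A ⊆ seg n A.card
  · exact eq_of_subset_of_card_le h2 (by rw [h1])
  · symm
    refine eq_of_subset_of_card_le (fun i hi => ?_) (by rw [h1])
    obtain ⟨j, hj, hj'⟩ := not_subset.1 h2
    refine h i j ?_ hj
    rw [mem_seg] at hi hj'
    have : (i : ℕ) ≤ j := by omega
    exact this

/-- every chain is a translate of the standard flag -/
theorem mem_orbit_iff {K : Finset ℕ} (hK : K ⊆ Icc 1 n) (c : Finset (Finset (Fin n))) :
    c ∈ MulAction.orbit (Equiv.Perm (Fin n)) (stdF n K) ↔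
      IsChain (· ≤ ·) (c : Set (Finset (Fin n))) ∧ c.image card = K := by
  constructor
  · rintro ⟨g, rfl⟩
    constructor
    · rintro A hA B hB hne
      obtain ⟨A', hA', rfl⟩ := Finset.mem_smul_finset.1 (mem_coe.1 hA)
      obtain ⟨B', hB', rfl⟩ := Finset.mem_smul_finset.1 (mem_coe.1 hB)
      rcases isChain_stdF K (mem_coe.2 hA') (mem_coe.2 hB') (fun e => hne (by rw [e])) with h | h
      · left
        exact Finset.smul_finset_subset_smul_finset h
      · right
        exact Finset.smul_finset_subset_smul_finset h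
    · have h1 : (g • stdF n K).image card = (stdF n K).image card := by
        ext m
        rw [mem_image, mem_image]
        constructor
        · rintro ⟨A, hA, rfl⟩
          obtain ⟨A', hA', rfl⟩ := Finset.mem_smul_finset.1 hA
          exact ⟨A', hA', (Finset.card_smul_finset _ _).symm⟩
        · rintro ⟨A, hA, rfl⟩
          exact ⟨g • A, Finset.smul_mem_smul_finset hA, Finset.card_smul_finset _ _⟩
      exact h1.trans (image_card_stdF hK)
  · rintro ⟨hc, hcK⟩
    -- the levels
    let lv : Fin n → ℕ := fun a => (c.filter fun C => a ∉ C).card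
    have hlv : ∀ C ∈ c, ∀ a b : Fin n, lv a ≤ lv b → b ∈ C → a ∈ C := by
      intro C hC a b hab hb
      by_contra ha
      refine absurd hab (not_le.2 (card_lt_card ?_))
      rw [ssubset_iff_of_subset]
      · exact ⟨C, mem_filter.2 ⟨hC, ha⟩, fun h => (mem_filter.1 h).2 hb⟩
      · intro C' hC'
        obtain ⟨hC1, hC2⟩ := mem_filter.1 hC'
        refine mem_filter.2 ⟨hC1, fun h => ?_⟩
        rcases eq_or_ne C C' with rfl | hne
        · exact hC2 hb
        rcases hc (mem_coe.2 hC) (mem_coe.2 hC1) hne with h3 | h3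
        · exact hC2 (h3 hb)
        · exact ha (h3 h)
    let g : Equiv.Perm (Fin n) := Tuple.sort lv
    have hg : Monotone (lv ∘ g) := Tuple.monotone_sort lv
    have h1 : ∀ C ∈ c, g • seg n C.card = C := by
      intro C hC
      have h2 : g⁻¹ • C = seg n (g⁻¹ • C).card := lower_eq_seg fun i j hij hj => by
        rw [Finset.mem_inv_smul_finset_iff] at hj ⊢
        exact hlv C hC _ _ (hg hij) hj
      rw [Finset.card_smul_finset] at h2
      rw [← h2, smul_inv_smul]
    refine ⟨g, ?_⟩
    change g • stdF n K = c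
    ext A
    rw [Finset.mem_smul_finset]
    constructor
    · rintro ⟨B, hB, rfl⟩
      obtain ⟨m, hm, rfl⟩ := mem_image.1 hB
      rw [← hcK] at hm
      obtain ⟨C, hC, rfl⟩ := mem_image.1 hm
      rw [h1 C hC]
      exact hC
    · intro hA
      refine ⟨seg n A.card, mem_image_of_mem _ ?_, h1 A hA⟩
      rw [← hcK]
      exact mem_image_of_mem _ hA

/-- fixed points on the cosets of a stabilizer -/
theorem pf_stab {G β : Type*} [Group G] [MulAction G β] (b : β) (x : G) :
    pf (MulAction.stabilizer G b) x = Nat.card {c : β // c ∈ MulAction.orbit G b ∧ x • c = c} := by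
  unfold pf
  refine Nat.card_congr (Equiv.ofBijective (fun y => ⟨MulAction.ofQuotientStabilizer G b y.1,
    MulAction.ofQuotientStabilizer_mem_orbit G b y.1, by
      rw [← MulAction.ofQuotientStabilizer_smul, y.2]⟩) ⟨?_, ?_⟩)
  · intro y y' e
    exact Subtype.ext (MulAction.injective_ofQuotientStabilizer G b (congrArg Subtype.val e))
  · rintro ⟨c, ⟨g, rfl⟩, hc⟩
    refine ⟨⟨(g : G ⧸ MulAction.stabilizer G b), ?_⟩, Subtype.ext (MulAction.ofQuotientStabilizer_mk G b g)⟩
    apply MulAction.injective_ofQuotientStabilizer G b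
    rw [MulAction.ofQuotientStabilizer_smul, MulAction.ofQuotientStabilizer_mk]
    exact hc

/-- the empty set -/
def bo (x : Equiv.Perm (Fin n)) : St x := ⟨∅, fun _ => by simp⟩

/-- **The fixed points of `x` on the cosets of a Young subgroup are the flags of stable subsets.** -/
theorem pf_Yn {K : Finset ℕ} (hK : K ⊆ Icc 1 n) (x : Equiv.Perm (Fin n)) :
    pf (Yn n K) x = fl (rkF x) (bo x) K := by
  classical
  rw [← stab_stdF hK, pf_stab]
  unfold fl
  symm
  have hval : ∀ y : St x, rkF x y - rkF x (bo x) = y.1.card := fun y => by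
    change y.1.card - (∅ : Finset (Fin n)).card = _
    rw [card_empty, Nat.sub_zero]
  have himg : ∀ c : Finset (St x), c.image (fun y => rkF x y - rkF x (bo x)) =
      (c.map (Function.Embedding.subtype _)).image card := by
    intro c
    rw [map_eq_image, image_image]
    exact image_congr fun y _ => hval y
  have hst : ∀ y : St x, x • y.1 = y.1 := fun y => smul_eq_iff.2 y.2
  refine Nat.card_congr (Equiv.ofBijective (fun c => ⟨c.1.map (Function.Embedding.subtype _),
    (mem_orbit_iff hK _).2 ⟨?_, (himg c.1).symm.trans c.2.2.2⟩, ?_⟩) ⟨?_, ?_⟩)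
  · rintro A hA B hB hne
    obtain ⟨A', hA', rfl⟩ := mem_map.1 (mem_coe.1 hA)
    obtain ⟨B', hB', rfl⟩ := mem_map.1 (mem_coe.1 hB)
    exact c.2.1 hA' hB' fun e => hne (by rw [e])
  · ext A
    rw [Finset.mem_smul_finset]
    constructor
    · rintro ⟨B, hB, rfl⟩
      obtain ⟨B', hB', rfl⟩ := mem_map.1 hB
      change x • B'.1 ∈ _
      rw [hst]
      exact hB
    · intro hA
      obtain ⟨A', hA', rfl⟩ := mem_map.1 hA
      exact ⟨_, hA, hst A'⟩
  · intro c c' e
    exact Subtype.ext (map_injective _ (congrArg Subtype.val e))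
  · rintro ⟨c, hc, hxc⟩
    obtain ⟨h1, h2⟩ := (mem_orbit_iff hK c).1 hc
    have h3 : ∀ A ∈ c, ∀ a, x a ∈ A ↔ a ∈ A := by
      intro A hA
      rw [← smul_eq_iff]
      have h4 : x • A ∈ c := by
        rw [← hxc]
        exact Finset.smul_mem_smul_finset hA
      by_contra hne
      have h5 : (x • A).card = A.card := Finset.card_smul_finset _ _
      rcases h1 (mem_coe.2 h4) (mem_coe.2 hA) hne with h | h
      · exact hne (eq_of_subset_of_card_le h h5.ge)
      · exact hne (eq_of_subset_of_card_le h h5.le).symm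
    have h4 : (c.subtype fun A => ∀ a, x a ∈ A ↔ a ∈ A).map (Function.Embedding.subtype _) = c := by
      rw [subtype_map, filter_true_of_mem h3]
    refine ⟨⟨c.subtype fun A => ∀ a, x a ∈ A ↔ a ∈ A, ?_, ?_, ?_⟩, Subtype.ext h4⟩
    · rintro A hA B hB hne
      exact h1 (mem_coe.2 (mem_subtype.1 (mem_coe.1 hA))) (mem_coe.2 (mem_subtype.1 (mem_coe.1 hB)))
        fun e => hne (Subtype.ext e)
    · intro y hy
      have h5 : y.1.card ∈ K := by
        rw [← h2]
        exact mem_image_of_mem _ (mem_subtype.1 hy)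
      have h6 := (mem_Icc.1 (hK h5)).1
      refine lt_of_le_of_ne (fun a ha => absurd ha (notMem_empty a)) fun e => ?_
      rw [← e] at h6
      exact absurd h6 (by simp [bo])
    · rw [himg, h4, h2]

end Cfsg.Agent.H774.CC
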